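import Cfsg.Agent.FGS3.PGroupAut
import Cfsg.Agent.Core.PiNumber
import Mathlib.GroupTheory.PGroup

/-! # Automorphisms of small support of a group of exponent two -/

set_option linter.style.haveILetI false

namespace Cfsg.Agent.FGS4.SmallSupport

open Subgroup

variable {V : Type*} [CommGroup V]

/-- `v ↦ a v / v`. -/
def dlt (a : MulAut V) : V →* V :=
  MonoidHom.mk' (fun v => a v / v) fun u v => by rw [map_mul, mul_div_mul_comm]

theorem dlt_apply (a : MulAut V) (v : V) : dlt a v = a v / v := rfl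

/-- `[V, a]`. -/
def supp (a : MulAut V) : Subgroup V := (dlt a).range

theorem apply_eq (a : MulAut V) (v : V) : a v = v * dlt a v := by
  rw [dlt_apply, mul_div_cancel]

theorem dlt_mem (a : MulAut V) (v : V) : dlt a v ∈ supp a := ⟨v, rfl⟩

/-- Automorphisms stabilizing `U` and inducing the identity on `V / U`. -/
def shiftGroup (U : Subgroup V) [Finite V] : Subgroup (MulAut V) where
  carrier := {a | ∀ v, dlt a v ∈ U}
  one_mem' := fun v => by simp [dlt_apply]
  mul_mem' := fun {a b} ha hb v => by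
    have h : dlt (a * b) v = dlt a (b v) * dlt b v := by
      simp only [dlt_apply, MulAut.mul_apply]
      rw [div_mul_div_cancel]
    rw [h]; exact mul_mem (ha _) (hb _)
  inv_mem' := fun {a} ha v => by
    have h : dlt a⁻¹ v = (dlt a (a⁻¹ v))⁻¹ := by
      simp only [dlt_apply, MulAut.apply_inv_self, inv_div]
    rw [h]; exact inv_mem (ha _)

theorem mem_of_mem_shiftGroup [Finite V] {U : Subgroup V} {a : MulAut V} (ha : a ∈ shiftGroup U)
    {v : V} (hv : v ∈ U) : a v ∈ U := by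
  rw [apply_eq]; exact mul_mem hv (ha v)

theorem self_mem_shiftGroup [Finite V] (a : MulAut V) {U : Subgroup V} (h : supp a ≤ U) :
    a ∈ shiftGroup U := fun v => h (dlt_mem a v)

theorem map_eq_of_forall_mem [Finite V] {U : Subgroup V} {a : MulAut V} (h : ∀ v ∈ U, a v ∈ U) :
    U.map a.toMonoidHom = U :=
  Subgroup.eq_of_le_of_card_ge (map_le_iff_le_comap.2 fun v hv => h v hv)
    (card_map_of_injective a.injective).ge

theorem pow_apply_of_fixed (a : MulAut V) (v : V) (h : a (dlt a v) = dlt a v) (n : ℕ) :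
    (a ^ n) v = v * dlt a v ^ n := by
  induction n with
  | zero => simp
  | succ n ih =>
    rw [pow_succ', MulAut.mul_apply, ih, map_mul, map_pow, h, apply_eq a v, mul_assoc, ← pow_succ']

/-- A fixed point of `a` in `[V, a]` is trivial, `a` of odd order. -/
theorem eq_one_of_fixed (he : ∀ v : V, v ^ 2 = 1) {a : MulAut V} {n : ℕ} (hn : Odd n) (ha : a ^ n = 1)
    {u : V} (hu : u ∈ supp a) (hfix : a u = u) : u = 1 := by
  obtain ⟨v, rfl⟩ := hu
  have h := pow_apply_of_fixed a v hfix n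
  rw [ha, MulAut.one_apply, left_eq_mul] at h
  obtain ⟨k, rfl⟩ := hn
  rwa [pow_add, pow_mul, he, one_pow, one_mul, pow_one] at h

/-- An odd automorphism trivial on `U` and on `V / U` is trivial. -/
theorem eq_one_of_shift [Finite V] (he : ∀ v : V, v ^ 2 = 1) {U : Subgroup V} {a : MulAut V}
    (ha : Odd (orderOf a)) (hs : a ∈ shiftGroup U) (hf : ∀ u ∈ U, a u = u) : a = 1 := by
  refine MulEquiv.ext fun v => ?_
  rw [MulAut.one_apply, apply_eq a v,
    eq_one_of_fixed he ha (pow_orderOf_eq_one a) (dlt_mem a v) (hf _ (hs v)), mul_one]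

theorem card_eq_two_pow [Finite V] (he : ∀ v : V, v ^ 2 = 1) (U : Subgroup V) :
    ∃ k, Nat.card U = 2 ^ k :=
  IsPGroup.iff_card.1 fun u => ⟨1, Subtype.ext (by simpa using he u)⟩

/-- An automorphism of prime order acts without fixed points on the invariant subgroups of `[V, a]`. -/
theorem dvd_card_sub_one [Finite V] (he : ∀ v : V, v ^ 2 = 1) {r : ℕ} [hr : Fact r.Prime] (hr2 : r ≠ 2)
    {a : MulAut V} (ha : a ^ r = 1) {X : Subgroup V} (hX : X ≤ supp a) (hinv : ∀ x ∈ X, a x ∈ X) :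
    r ∣ Nat.card X - 1 := by
  have hodd : Odd r := hr.out.odd_of_ne_two hr2
  let e : MulAut X := (a.subgroupMap X).trans (MulEquiv.subgroupCongr (map_eq_of_forall_mem hinv))
  have hev : ∀ x : X, ((e x : X) : V) = a x := fun x => rfl
  have he' : ∀ (n : ℕ) (x : X), (((e ^ n) x : X) : V) = (a ^ n) x := by
    intro n
    induction n with
    | zero => intro x; rfl
    | succ n ih => intro x; rw [pow_succ', MulAut.mul_apply, hev, ih, ← MulAut.mul_apply, ← pow_succ']
  have hP : IsPGroup r (zpowers e) := by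
    obtain ⟨k, -, hk⟩ := (Nat.dvd_prime_pow hr.out).1 (orderOf_dvd_of_pow_eq_one (n := r ^ 1) (x := e) (by
      refine MulEquiv.ext fun x => Subtype.ext ?_
      rw [pow_one, he', ha]; rfl))
    exact IsPGroup.of_card (n := k) (by rw [Nat.card_zpowers, hk])
  have hfix : Nat.card (MulAction.fixedPoints (zpowers e) X) = 1 := by
    rw [Nat.card_eq_one_iff_unique]
    refine ⟨⟨?_⟩, ⟨1, fun g => map_one g.1⟩⟩
    suffices h : ∀ x : MulAction.fixedPoints (zpowers e) X, (x.1 : V) = 1 from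
      fun x y => Subtype.ext (Subtype.ext ((h x).trans (h y).symm))
    intro x
    exact eq_one_of_fixed he hodd ha (hX x.1.2)
      (congrArg Subtype.val (x.2 ⟨e, mem_zpowers e⟩))
  have h := hP.card_modEq_card_fixedPoints X
  rw [hfix] at h
  exact (Nat.modEq_iff_dvd' Nat.card_pos).1 h.symm

theorem supp_conj (g a : MulAut V) : supp (g * a * g⁻¹) = (supp a).map g.toMonoidHom := by
  ext w
  constructor
  · rintro ⟨v, rfl⟩
    refine ⟨dlt a (g⁻¹ v), dlt_mem _ _, ?_⟩
    simp [dlt_apply, MulAut.mul_apply, map_div]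
  · rintro ⟨_, ⟨v, rfl⟩, rfl⟩
    exact ⟨g v, by simp [dlt_apply, MulAut.mul_apply, map_div]⟩

theorem commute_apply_mem {a b : MulAut V} (h : Commute a b) {u : V} (hu : u ∈ supp a) : b u ∈ supp a := by
  obtain ⟨v, rfl⟩ := hu
  refine ⟨b v, ?_⟩
  rw [dlt_apply, dlt_apply, map_div, ← MulAut.mul_apply, h.eq, MulAut.mul_apply]

/-! ### Orders of automorphism groups of small groups of exponent two -/

theorem not_pow_dvd_card_mulAut {X : Type*} [Group X] [Finite X] {k : ℕ} (hX : Nat.card X ∣ 2 ^ k)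
    {r s : ℕ} (hr : r.Prime) (hr2 : r ≠ 2)
    (h : ∀ j ≤ k, ¬ r ^ s ∣ ∏ i ∈ Finset.range j, (2 ^ j - 2 ^ i)) : ¬ r ^ s ∣ Nat.card (MulAut X) := by
  obtain ⟨n, hnk, hn⟩ := (Nat.dvd_prime_pow Nat.prime_two).1 hX
  have hp : IsPGroup 2 X := IsPGroup.of_card hn
  obtain ⟨j, hj⟩ := hp.index (frattini X)
  have hjn : j ≤ n := (Nat.pow_dvd_pow_iff_le_right one_lt_two).1 (hn ▸ hj ▸ index_dvd_card _)
  obtain ⟨i, hi⟩ := IsPGroup.iff_card.1 (hp.to_subgroup (frattini X))
  intro hd
  have h1 := hd.trans (FGS3.card_mulAut_dvd hp hj)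
  rw [hi, ← pow_mul] at h1
  refine h j (hjn.trans hnk) ((Nat.Coprime.dvd_of_dvd_mul_left ?_ h1))
  exact Nat.Coprime.pow _ _ ((Nat.coprime_primes hr Nat.prime_two).2 hr2)

/-- Restriction of a group of automorphisms stabilizing `U`. -/
def restrictHom [Finite V] (U : Subgroup V) (L : Subgroup (MulAut V)) (h : ∀ a ∈ L, ∀ u ∈ U, a u ∈ U) :
    L →* MulAut U :=
  MonoidHom.mk' (fun a => ((a : MulAut V).subgroupMap U).trans
    (MulEquiv.subgroupCongr (map_eq_of_forall_mem (h a a.2)))) fun _ _ => MulEquiv.ext fun _ => Subtype.ext rfl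

theorem restrictHom_eq_one [Finite V] {U : Subgroup V} {L : Subgroup (MulAut V)}
    {h : ∀ a ∈ L, ∀ u ∈ U, a u ∈ U} {a : L} : restrictHom U L h a = 1 ↔ ∀ u ∈ U, (a : MulAut V) u = u :=
  ⟨fun he u hu => (congrArg Subtype.val (DFunLike.congr_fun he (⟨u, hu⟩ : U)) :),
    fun he => MulEquiv.ext fun u => Subtype.ext (he u u.2)⟩

theorem injective_restrictHom [Finite V] (he : ∀ v : V, v ^ 2 = 1) {U : Subgroup V}
    {L : Subgroup (MulAut V)} (hL : L ≤ shiftGroup U) (hodd : Odd (Nat.card L)) :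
    Function.Injective (restrictHom U L fun _ ha _ hu => mem_of_mem_shiftGroup (hL ha) hu) := by
  rw [injective_iff_map_eq_one]
  intro a ha
  refine Subtype.ext (eq_one_of_shift he ?_ (hL a.2) (restrictHom_eq_one.1 ha))
  rw [orderOf_coe]
  exact hodd.of_dvd_nat (_root_.orderOf_dvd_natCard a)

theorem card_sup_supp_dvd (a b : MulAut V) [Finite V] {d : ℕ} (ha : Nat.card (supp a) = 2 ^ d)
    (hb : Nat.card (supp b) = 2 ^ d) : Nat.card (supp a ⊔ supp b : Subgroup V) ∣ 2 ^ (2 * d) := by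
  have h := Core.card_sup_dvd_mul (supp a) (supp b)
  rwa [ha, hb, ← pow_add, ← two_mul] at h

/-- The numerical conditions under which supports of size `2 ^ d` form blocks. -/
structure Blocky (r d : ℕ) : Prop where
  prime : r.Prime
  odd : r ≠ 2
  big : ∀ j ≤ 2 * d, ¬ r ^ 3 ∣ ∏ i ∈ Finset.range j, (2 ^ j - 2 ^ i)
  small : ∀ j ≤ d, ¬ r ^ 2 ∣ ∏ i ∈ Finset.range j, (2 ^ j - 2 ^ i)
  irred : ∀ j < d, r ∣ 2 ^ j - 1 → j = 0

theorem blocky_three : Blocky 3 2 :=
  ⟨Nat.prime_three, by decide, by decide, by decide, by decide⟩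

theorem blocky_seven : Blocky 7 3 :=
  ⟨by norm_num, by decide, by decide, by decide, by decide⟩

theorem blocks [Finite V] (he : ∀ v : V, v ^ 2 = 1) {r d : ℕ} (hB : Blocky r d) {T : Subgroup (MulAut V)}
    (hT : IsPGroup r T) {a b : MulAut V} (ha : a ∈ T) (hb : b ∈ T) (ha1 : a ^ r = 1)
    (hca : Nat.card (supp a) = 2 ^ d) (hcb : Nat.card (supp b) = 2 ^ d) :
    Commute a b ∧ (supp b ≠ supp a → ∀ u ∈ supp a, b u = u) := by
  haveI := Fact.mk hB.prime
  have hcomm : Commute a b := by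
    set U := supp a ⊔ supp b with hU
    set L := closure ({a, b} : Set (MulAut V)) with hL
    have hLT : L ≤ T := (closure_le _).2 (Set.insert_subset_iff.2 ⟨ha, Set.singleton_subset_iff.2 hb⟩)
    have hLs : L ≤ shiftGroup U := (closure_le _).2 (Set.insert_subset_iff.2
      ⟨self_mem_shiftGroup a le_sup_left, Set.singleton_subset_iff.2 (self_mem_shiftGroup b le_sup_right)⟩)
    obtain ⟨k, hk⟩ := IsPGroup.iff_card.1 (hT.to_le hLT)
    have hodd : Odd (Nat.card L) := hk ▸ (hB.prime.odd_of_ne_two hB.odd).pow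
    have hinj := injective_restrictHom he hLs hodd
    have hk2 : k ≤ 2 := by
      by_contra hk3
      exact not_pow_dvd_card_mulAut (card_sup_supp_dvd a b hca hcb) hB.prime hB.odd hB.big
        ((Nat.pow_dvd_pow r (by omega : 3 ≤ k)).trans (hk ▸ Subgroup.card_dvd_of_injective _ hinj))
    have hab : ∀ x y : L, x * y = y * x := by
      rcases (by omega : k = 0 ∨ k = 1 ∨ k = 2) with rfl | rfl | rfl
      · haveI : Subsingleton L := (Nat.card_eq_one_iff_unique.1 (by rw [hk, pow_zero])).1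
        exact fun x y => Subsingleton.elim _ _
      · haveI := isCyclic_of_prime_card (by rw [hk, pow_one] : Nat.card L = r)
        exact fun x y => by
          obtain ⟨g, hg⟩ := IsCyclic.exists_generator (α := L)
          obtain ⟨i, rfl⟩ := hg x
          obtain ⟨j, rfl⟩ := hg y
          exact (Commute.zpow_zpow_self g i j).eq
      · exact (IsPGroup.isMulCommutative_of_card_eq_prime_sq hk).1.comm
    exact congrArg Subtype.val (hab ⟨a, Subgroup.subset_closure (Set.mem_insert _ _)⟩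
      ⟨b, Subgroup.subset_closure (Set.mem_insert_of_mem _ rfl)⟩)
  refine ⟨hcomm, fun hne u hu => ?_⟩
  set X := (supp a).map (dlt b) with hX
  have hXa : X ≤ supp a := by
    rintro _ ⟨w, hw, rfl⟩
    exact div_mem (commute_apply_mem hcomm hw) hw
  have hXb : X ≤ supp b := by rintro _ ⟨w, -, rfl⟩; exact dlt_mem b w
  have hinv : ∀ x ∈ X, a x ∈ X := by
    rintro _ ⟨w, hw, rfl⟩
    refine ⟨a w, commute_apply_mem (Commute.refl a) hw, ?_⟩
    rw [dlt_apply, dlt_apply, map_div, ← MulAut.mul_apply, ← hcomm.eq, MulAut.mul_apply]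
  have h1 := dvd_card_sub_one he hB.odd ha1 hXa hinv
  obtain ⟨j, hj⟩ := card_eq_two_pow he X
  rw [hj] at h1
  rcases lt_or_ge j d with hjd | hjd
  · have hj0 := hB.irred j hjd h1
    rw [hj0, pow_zero] at hj
    have h2 : dlt b u ∈ X := mem_map_of_mem _ hu
    rw [eq_bot_of_card_eq X hj, mem_bot] at h2
    rw [apply_eq, h2, mul_one]
  · exfalso
    have hge : 2 ^ d ≤ Nat.card X := hj ▸ Nat.pow_le_pow_right two_pos hjd
    exact hne ((Subgroup.eq_of_le_of_card_ge hXb (hcb ▸ hge)).symm.trans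
      (Subgroup.eq_of_le_of_card_ge hXa (hca ▸ hge)))

/-- An element commuting with its commutator with `x` fixes the support of `x`. -/
theorem map_supp_eq [Finite V] (he : ∀ v : V, v ^ 2 = 1) {r d : ℕ} (hB : Blocky r d) (hd : d ≠ 0)
    {T : Subgroup (MulAut V)} (hT : IsPGroup r T) {f x : MulAut V} (hf : f ∈ T) (hx : x ∈ T)
    (hx1 : x ^ r = 1) (hc : Nat.card (supp x) = 2 ^ d) (hfu : Commute f (f * x * f⁻¹ * x⁻¹)) :
    (supp x).map f.toMonoidHom = supp x := by
  by_contra hne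
  obtain ⟨x1, hx1d⟩ : ∃ y, y = f * x * f⁻¹ := ⟨_, rfl⟩
  obtain ⟨x2, hx2d⟩ : ∃ y, y = f * x1 * f⁻¹ := ⟨_, rfl⟩
  have hs1 : supp x1 = (supp x).map f.toMonoidHom := hx1d ▸ supp_conj f x
  have hs2 : supp x2 = (supp x1).map f.toMonoidHom := hx2d ▸ supp_conj f x1
  have hc1 : Nat.card (supp x1) = 2 ^ d := by rw [hs1, card_map_of_injective f.injective, hc]
  have hc2 : Nat.card (supp x2) = 2 ^ d := by rw [hs2, card_map_of_injective f.injective, hc1]
  have hx1T : x1 ∈ T := hx1d ▸ mul_mem (mul_mem hf hx) (inv_mem hf)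
  have hx2T : x2 ∈ T := hx2d ▸ mul_mem (mul_mem hf hx1T) (inv_mem hf)
  have h20 : supp x2 ≠ supp x := by
    intro h
    apply hne
    obtain ⟨k, hk⟩ : ∃ k, orderOf f = 2 * k + 1 := by
      obtain ⟨n, hn⟩ := hT ⟨f, hf⟩
      have h1 : orderOf f ∣ r ^ n := orderOf_dvd_of_pow_eq_one (congrArg Subtype.val hn)
      exact ((hB.prime.odd_of_ne_two hB.odd).pow).of_dvd_nat h1
    have h2 : ∀ i : ℕ, (supp x).map ((f ^ 2) ^ i).toMonoidHom = supp x := by
      intro i
      induction i with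
      | zero => exact Subgroup.map_id _
      | succ i ih =>
        conv_rhs => rw [← h, hs2, hs1, ← ih, Subgroup.map_map, Subgroup.map_map]
        congr 1
        refine MonoidHom.ext fun v => ?_
        show ((f ^ 2) ^ (i + 1)) v = f (f (((f ^ 2) ^ i) v))
        rw [pow_succ', pow_two f]
        rfl
    have h3 : f = ((f ^ 2) ^ (k + 1)) := by
      rw [← pow_mul, show 2 * (k + 1) = orderOf f + 1 by omega, pow_succ, pow_orderOf_eq_one, one_mul]
    rw [h3]; exact h2 (k + 1)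
  have hkey : x1 * x⁻¹ = x2 * x1⁻¹ := by
    have h := hfu.eq
    rw [← hx1d] at h
    calc x1 * x⁻¹ = f * (x1 * x⁻¹) * f⁻¹ := by rw [h, mul_inv_cancel_right]
      _ = f * x1 * f⁻¹ * (f * x * f⁻¹)⁻¹ := by group
      _ = x2 * x1⁻¹ := by rw [← hx1d, ← hx2d]
  have hbot : supp x = ⊥ := by
    rw [eq_bot_iff_forall]
    intro u hu
    have h1 : x1 u = u := (blocks he hB hT hx hx1T hx1 hc hc1).2 (hs1 ▸ hne) u hu
    have h2 : x2 u = u := (blocks he hB hT hx hx2T hx1 hc hc2).2 h20 u hu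
    have hmem : x⁻¹ u ∈ supp x := commute_apply_mem (Commute.refl x).inv_right hu
    have h3 : x1 (x⁻¹ u) = x⁻¹ u := (blocks he hB hT hx hx1T hx1 hc hc1).2 (hs1 ▸ hne) _ hmem
    have h4 := DFunLike.congr_fun hkey u
    rw [MulAut.mul_apply, MulAut.mul_apply, h3,
      show x1⁻¹ u = u from (congrArg (fun w => (x1⁻¹ : MulAut V) w) h1).symm.trans (MulAut.inv_apply_self V x1 u), h2] at h4
    refine eq_one_of_fixed he (hB.prime.odd_of_ne_two hB.odd) hx1 hu ?_
    exact (congrArg x h4).symm.trans (MulAut.apply_inv_self V x u)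
  rw [hbot, Subgroup.card_bot] at hc
  exact hd (Nat.pow_eq_one.1 hc.symm |>.resolve_left (by decide))

end Cfsg.Agent.FGS4.SmallSupport
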