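import Cfsg.Agent.FGS4.SmallSupport.Pair
import Cfsg.Agent.OddLocal.RankTwo.Omega
import Cfsg.Agent.OddLocal.RankTwo.Narrow
import Cfsg.Agent.FGS4.SingularGraph.Translate
import Cfsg.Agent.Core.Hall
import Cfsg.Agent.Transfer.PGroupNormal

/-! # Elementary abelian subgroups of rank three and a four-group `[Q, M]` -/

set_option linter.style.haveILetI false

namespace Cfsg.Agent.FGS4.SmallSupport

open Subgroup Cfsg
open scoped commutatorElement IsMulCommutative
set_option maxHeartbeats 400000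

universe u

/-- A power of `s` which is a `p`-element and has the same image as `s` under maps killing `s ^ p`. -/
theorem exists_pow_part {G : Type*} [Group G] [Finite G] {p : ℕ} [hp : Fact p.Prime] (s : G) :
    ∃ m i : ℕ, m % p = 1 ∧ (s ^ m) ^ p ^ i = 1 := by
  obtain ⟨i, c, hc, hsc⟩ := Nat.exists_eq_pow_mul_and_not_dvd (orderOf_pos s).ne' p hp.out.ne_one
  have hcop : p.Coprime c := (Nat.Prime.coprime_iff_not_dvd hp.out).2 hc
  obtain ⟨m, hm1, hm2⟩ := Nat.chineseRemainder hcop 1 0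
  refine ⟨m, i, ?_, ?_⟩
  · rw [Nat.ModEq, Nat.mod_eq_of_lt hp.out.one_lt] at hm1; exact hm1
  · obtain ⟨k, rfl⟩ := Nat.modEq_zero_iff_dvd.1 hm2
    rw [← pow_mul, show c * k * p ^ i = orderOf s * k by rw [hsc]; ring, pow_mul, pow_orderOf_eq_one, one_pow]

/-- A `p`-group with an elementary abelian subgroup of order `p ^ 3` has a normal one. -/
theorem exists_normal_cube {P : Type u} [Group P] [Finite P] {p : ℕ} [hp : Fact p.Prime] (hp2 : p ≠ 2)
    (hP : IsPGroup p P) (hr : ¬ PRankLE p 2 P) :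
    ∃ F : Subgroup P, F.Normal ∧ IsElementaryAbelian p F ∧ Nat.card F = p ^ 3 := by
  obtain ⟨A, -, hAn, hAc, hA⟩ := OddLocal.RankTwo.exists_scn_three hp2 hP hr ⊥ PLocal.isEA_bot
  have hAcomm : ∀ a ∈ A, ∀ b ∈ A, a * b = b * a := fun a ha b hb => by
    rw [← hAc] at hb
    exact mem_centralizer_iff.1 hb a ha
  let N : Subgroup P :=
    { carrier := {x | x ∈ A ∧ x ^ p = 1}
      one_mem' := ⟨one_mem _, one_pow _⟩
      mul_mem' := fun {a b} ha hb => ⟨mul_mem ha.1 hb.1, by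
        rw [(show Commute a b from hAcomm a ha.1 b hb.1).mul_pow, ha.2, hb.2, one_mul]⟩
      inv_mem' := fun {a} ha => ⟨inv_mem ha.1, by rw [inv_pow, ha.2, inv_one]⟩ }
  have hNn : N.Normal := ⟨fun x hx g => ⟨hAn.conj_mem x hx.1 g, by rw [conj_pow, hx.2]; group⟩⟩
  have hNea : IsElementaryAbelian p N :=
    ⟨⟨⟨fun a b => Subtype.ext (hAcomm a a.2.1 b b.2.1)⟩⟩, fun a ha => ha.2⟩
  have h3 : p ^ 3 ≤ Nat.card N := by
    obtain ⟨k, hk⟩ := IsPGroup.iff_card.1 (hP.to_subgroup N)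
    rw [hk]
    refine Nat.pow_le_pow_right hp.out.pos ?_
    by_contra hk3
    refine hA fun B hB hBp => ?_
    rw [← Subgroup.card_map_of_injective A.subtype_injective]
    calc Nat.card (B.map A.subtype) ≤ Nat.card N := Subgroup.card_le_of_le (by
            rintro _ ⟨b, hb, rfl⟩; exact ⟨b.2, congrArg Subtype.val (hBp b hb)⟩)
      _ ≤ p ^ 2 := hk ▸ Nat.pow_le_pow_right hp.out.pos (by omega)
  obtain ⟨F, hF, hFN, hFc⟩ := Transfer.PNormal.exists_normal_card hP hNn 3 h3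
  exact ⟨F, hF, PLocal.isEA_mono hNea hFN, hFc⟩

variable {S : Type u} [Group S] [Finite S] {M : Subgroup S} [M.Normal] [IsMulCommutative M]

/-- What is to be proved. -/
def Goal (W : Subgroup M) : Prop :=
  ∃ (r : ℕ) (F : Subgroup S), r.Prime ∧ r ≠ 2 ∧ IsElementaryAbelian r F ∧ Nat.card F = r ^ 3 ∧
    ¬ IsCyclic ↥(F ⊓ centralizer ((W.map M.subtype : Subgroup S) : Set S))

theorem mem_centralizer_map_iff {W : Subgroup M} {s : S} :
    s ∈ centralizer ((W.map M.subtype : Subgroup S) : Set S) ↔ ∀ w ∈ W, MulAut.conjNormal s w = w := by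
  rw [mem_centralizer_iff]
  refine ⟨fun h w hw => Subtype.ext ?_, ?_⟩
  · rw [MulAut.conjNormal_apply]
    have h1 : (w : S) * s = s * w := h _ (mem_map_of_mem _ hw)
    rw [← h1, mul_inv_cancel_right]
  · rintro h _ ⟨w, hw, rfl⟩
    have h1 : s * (w : S) * s⁻¹ = w := by
      rw [← MulAut.conjNormal_apply]; exact congrArg Subtype.val (h w hw)
    exact (mul_inv_eq_iff_eq_mul.1 h1).symm

theorem goal_of_ker {W : Subgroup M} {r : ℕ} [hr : Fact r.Prime] (hr2 : r ≠ 2) {F : Subgroup S}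
    (hF : IsElementaryAbelian r F) (hF3 : Nat.card F = r ^ 3)
    (h : ∃ F0 : Subgroup S, F0 ≤ F ∧ r ^ 2 ≤ Nat.card F0 ∧ ∀ f ∈ F0, ∀ w ∈ W, MulAut.conjNormal f w = w) :
    Goal W := by
  obtain ⟨F0, h1, h2, h3⟩ := h
  refine ⟨r, F, hr.out, hr2, hF, hF3, fun hc => ?_⟩
  haveI := hc
  have hle : F0 ≤ F ⊓ centralizer ((W.map M.subtype : Subgroup S) : Set S) :=
    le_inf h1 fun f hf => mem_centralizer_map_iff.2 (h3 f hf)
  have h4 : Nat.card ↥(F ⊓ centralizer ((W.map M.subtype : Subgroup S) : Set S)) ∣ r := by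
    rw [← IsCyclic.exponent_eq_card]
    exact Monoid.exponent_dvd_of_forall_pow_eq_one fun a => Subtype.ext (hF.2 a a.2.1)
  have h5 := (h2.trans (Subgroup.card_le_of_le hle)).trans (Nat.le_of_dvd hr.out.pos h4)
  exact absurd h5 (not_le.2 (lt_self_pow₀ hr.out.one_lt one_lt_two))

theorem goal_of_sylow (he : ∀ v : M, v ^ 2 = 1) {r d : ℕ} [hr : Fact r.Prime] (hB : Blocky r d) (hd : d ≠ 0)
    (T : Sylow r S) (hrk : ¬ PRankLE r 2 (T : Subgroup S)) {a : S} (ha : a ∈ (T : Subgroup S))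
    (ha1 : (MulAut.conjNormal a : MulAut M) ^ r = 1)
    (hca : Nat.card (supp (MulAut.conjNormal a : MulAut M)) = 2 ^ d) {W : Subgroup M}
    (hW : W ≤ supp (MulAut.conjNormal a : MulAut M)) : Goal W := by
  obtain ⟨F', hF'n, hF'ea, hF'c⟩ := exists_normal_cube hB.odd T.isPGroup' hrk
  set F := F'.map (T : Subgroup S).subtype with hF
  have hFea : IsElementaryAbelian r F := PLocal.isEA_map hF'ea _
  have hFc : Nat.card F = r ^ 3 := by rw [hF, card_map_of_injective (T : Subgroup S).subtype_injective, hF'c]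
  have hFT : F ≤ T := map_subtype_le _
  set φ : S →* MulAut M := MulAut.conjNormal with hφ
  set U := supp (φ a) with hU
  have hfix : ∀ g ∈ F.map φ, ∀ u ∈ U, g u ∈ U := by
    rintro _ ⟨f, hf, rfl⟩ u hu
    have hu' : φ f u ∈ U.map (φ f).toMonoidHom := mem_map_of_mem _ hu
    rwa [map_supp_eq he hB hd (T.isPGroup'.map φ) (mem_map_of_mem φ (hFT hf)) (mem_map_of_mem φ ha) ha1 hca
      (by
        rw [← map_inv, ← map_inv, ← map_mul, ← map_mul, ← map_mul]
        refine Commute.map ?_ φ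
        obtain ⟨f', hf', rfl⟩ := hf
        have h1 : f' * ⟨a, ha⟩ * f'⁻¹ * ⟨a, ha⟩⁻¹ ∈ F' := by
          rw [mul_assoc, mul_assoc]
          exact mul_mem hf' (mul_assoc (⟨a, ha⟩ : (T : Subgroup S)) f'⁻¹ _ ▸ hF'n.conj_mem _ (inv_mem hf') _)
        exact (congrArg Subtype.val (PLocal.comm_of_EA hF'ea hf' h1) :))] at hu'
  let ψ : F →* MulAut U := (restrictHom U (F.map φ) hfix).comp (φ.subgroupMap F)
  have hker : r ^ 2 ≤ Nat.card ψ.ker := by
    have h1 := ψ.ker.card_mul_index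
    rw [hFc, Subgroup.index_ker] at h1
    obtain ⟨j, hj3, hj⟩ := (Nat.dvd_prime_pow hr.out).1 (Dvd.intro_left _ h1)
    have hj1 : j ≤ 1 := by
      by_contra hj2
      exact not_pow_dvd_card_mulAut (dvd_of_eq hca) hr.out hB.odd hB.small
        ((Nat.pow_dvd_pow r (by omega : 2 ≤ j)).trans (hj ▸ Subgroup.card_subgroup_dvd_card _))
    rw [hj] at h1
    interval_cases j
    · rw [pow_zero, mul_one] at h1; rw [h1]; exact Nat.pow_le_pow_right hr.out.pos (by norm_num)
    · rw [pow_one, pow_succ r 2] at h1; exact (Nat.eq_of_mul_eq_mul_right hr.out.pos h1).ge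
  refine goal_of_ker hB.odd hFea hFc ⟨ψ.ker.map F.subtype, map_subtype_le _,
    by rwa [card_map_of_injective F.subtype_injective], ?_⟩
  rintro _ ⟨f, hf, rfl⟩ w hw
  exact restrictHom_eq_one.1 (show restrictHom U (F.map φ) hfix (φ.subgroupMap F f) = 1 from hf) w (hW hw)

theorem eq_one_of_small_aut {X : Type*} [Group X] [Finite X] {b p k : ℕ} (hb : b.Prime) (hp : p.Prime)
    (hpb : p ≠ b) (hX : Nat.card X ∣ b ^ k)
    (h : ∀ j ≤ k, ¬ p ∣ ∏ i ∈ Finset.range j, (b ^ j - b ^ i)) {a : MulAut X} {i : ℕ} (ha : a ^ p ^ i = 1) :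
    a = 1 := by
  haveI := Fact.mk hb
  obtain ⟨n, hnk, hn⟩ := (Nat.dvd_prime_pow hb).1 hX
  have hbX : IsPGroup b X := IsPGroup.of_card hn
  obtain ⟨j, hj⟩ := hbX.index (frattini X)
  have hjn : j ≤ n := (Nat.pow_dvd_pow_iff_le_right hb.one_lt).1 (hn ▸ hj ▸ index_dvd_card _)
  obtain ⟨l, hl⟩ := IsPGroup.iff_card.1 (hbX.to_subgroup (frattini X))
  obtain ⟨m, -, hm⟩ := (Nat.dvd_prime_pow hp).1 (orderOf_dvd_of_pow_eq_one ha)
  rw [← orderOf_eq_one_iff, hm]
  by_contra hne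
  have hm0 : m ≠ 0 := fun e => hne (by rw [e, pow_zero])
  have h1 := ((dvd_pow_self p hm0).trans (hm ▸ _root_.orderOf_dvd_natCard a)).trans
    (FGS3.card_mulAut_dvd hbX hj)
  rw [hl, ← pow_mul] at h1
  exact h j (hjn.trans hnk) ((((Nat.coprime_primes hp hb).2 hpb).pow_right _).dvd_of_dvd_mul_left h1)

theorem not_dvd_prod_two {p : ℕ} (hp : p.Prime) (hp5 : 5 ≤ p) :
    ∀ j ≤ 2, ¬ p ∣ ∏ i ∈ Finset.range j, (2 ^ j - 2 ^ i) := by
  intro j hj h
  interval_cases j <;> norm_num [Finset.prod_range_succ] at h <;> try omega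
  rcases hp.dvd_mul.1 (show p ∣ 2 * 3 from h) with h | h <;> have := Nat.le_of_dvd (by norm_num) h <;> omega

theorem not_dvd_prod_three {p : ℕ} (hp : p.Prime) (hp5 : 5 ≤ p) :
    ∀ j ≤ 2, ¬ p ∣ ∏ i ∈ Finset.range j, (3 ^ j - 3 ^ i) := by
  intro j hj h
  interval_cases j <;> norm_num [Finset.prod_range_succ] at h
  · omega
  · have := Nat.le_of_dvd (by norm_num) h; omega
  rcases hp.dvd_mul.1 (show p ∣ 2 ^ 4 * 3 from h) with h | h
  · have := Nat.le_of_dvd (by norm_num) (hp.dvd_of_dvd_pow h); omega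
  · have := Nat.le_of_dvd (by norm_num) h; omega

theorem centralizes_of_pPower {H : Type*} [Group H] [Finite H] {p : ℕ} (hp : p.Prime) (hp5 : 5 ≤ p)
    {T : Subgroup H} (hT : IsPGroup 3 T) (hr : PRankLE 3 2 T) {n : H} (hn : n ∈ normalizer (T : Set H))
    {i : ℕ} (hni : n ^ p ^ i = 1) : ∀ t ∈ T, n * t * n⁻¹ = t := by
  haveI : Fact (Nat.Prime 3) := ⟨Nat.prime_three⟩
  set N := normalizer (T : Set H) with hN
  haveI : (T.subgroupOf N).Normal := normal_in_normalizer
  set nn : N := ⟨n, hn⟩ with hnn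
  have hnn1 : nn ^ p ^ i = 1 := Subtype.ext hni
  let α : MulAut (T.subgroupOf N) := MulAut.conjNormal nn
  have hα : α ^ p ^ i = 1 := by rw [← map_pow, hnn1, map_one]
  have hR : IsPGroup 3 (T.subgroupOf N) := hT.comap_of_injective _ N.subtype_injective
  have hRr : PRankLE 3 2 (T.subgroupOf N) :=
    Components.pRankLE_of_injective (subgroupOfEquivOfLe (le_normalizer : T ≤ N)).injective
      (f := (subgroupOfEquivOfLe (le_normalizer : T ≤ N)).toMonoidHom) hr
  obtain ⟨V, _, _, θ, -, hVexp, hVc, hθ⟩ :=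
    OddLocal.RankTwo.exists_small_quotient (by norm_num : (3 : ℕ) ≠ 2) hR hRr
  have hV9 : Nat.card V ∣ 3 ^ 2 := by
    obtain ⟨k, hk⟩ := IsPGroup.iff_card.1 (fun v => ⟨1, by simpa using hVexp v⟩ : IsPGroup 3 V)
    rw [hk] at hVc ⊢
    exact Nat.pow_dvd_pow 3 ((Nat.pow_le_pow_iff_right (by norm_num)).1 hVc)
  have hθ1 : θ α = 1 := eq_one_of_small_aut Nat.prime_three hp (by omega) hV9
    (not_dvd_prod_three hp hp5) (i := i) (by rw [← map_pow, hα, map_one])
  have hα1 : α = 1 := by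
    refine hθ α ?_ hθ1
    obtain ⟨j, -, hj⟩ := (Nat.dvd_prime_pow hp).1 (orderOf_dvd_of_pow_eq_one hα)
    rw [hj]
    exact Nat.Coprime.pow_left j ((Nat.coprime_primes hp Nat.prime_three).2 (by omega))
  intro t ht
  have h := congrArg (fun w : T.subgroupOf N => ((w : N) : H))
    (DFunLike.congr_fun hα1 (⟨⟨t, le_normalizer ht⟩, ht⟩ : T.subgroupOf N))
  simpa [α, nn, MulAut.conjNormal_apply] using h

/-- If the conjugates of `x` commute, elements of order dividing `p` commute with `x`. -/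
theorem commute_of_all_commute {H X : Type*} [Group H] [Finite H] [Group X] [Finite X] {p : ℕ}
    (hp : p.Prime) (hp5 : 5 ≤ p) (ψ : H →* X) (hrk : ∀ R : Subgroup H, IsPGroup 3 R → PRankLE 3 2 R)
    {q : H} (hx : (ψ q) ^ 3 = 1) (hall : ∀ h, Commute (ψ q) (ψ h * ψ q * (ψ h)⁻¹))
    (e : H) (he : e ^ p = 1) : Commute (ψ e) (ψ q) := by
  haveI := Fact.mk hp
  haveI : Fact (Nat.Prime 3) := ⟨Nat.prime_three⟩
  set A := closure (Set.range fun h : H => ψ h * ψ q * (ψ h)⁻¹) with hA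
  have hAcomm : ∀ a ∈ A, ∀ b ∈ A, a * b = b * a := by
    have h1 : ∀ h k : H, Commute (ψ h * ψ q * (ψ h)⁻¹) (ψ k * ψ q * (ψ k)⁻¹) := by
      intro h k
      have h2 := (hall (h⁻¹ * k)).map (MulAut.conj (ψ h)).toMonoidHom
      simpa [map_mul, map_inv, MulAut.conj_apply, mul_assoc] using h2
    have h2 : A ≤ centralizer (Set.range fun h : H => ψ h * ψ q * (ψ h)⁻¹) := (closure_le _).2 (by
      rintro _ ⟨h, rfl⟩
      exact mem_centralizer_iff.2 (by rintro _ ⟨k, rfl⟩; exact h1 k h))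
    intro a ha b hb
    have h3 : A ≤ centralizer (A : Set X) := by
      rw [hA, centralizer_closure]; exact h2
    exact mem_centralizer_iff.1 (h3 hb) a ha
  have hA3 : ∀ a ∈ A, a ^ 3 = 1 := by
    intro a ha
    induction ha using Subgroup.closure_induction with
    | mem a ha => obtain ⟨h, rfl⟩ := ha; rw [conj_pow, hx, mul_one, mul_inv_cancel]
    | one => exact one_pow _
    | mul a b ha hb iha ihb => rw [(show Commute a b from hAcomm a ha b hb).mul_pow, iha, ihb, one_mul]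
    | inv a _ iha => rw [inv_pow, iha, inv_one]
  have hAinv : ∀ h : H, ∀ a ∈ A, ψ h * a * (ψ h)⁻¹ ∈ A := by
    intro h a ha
    have : A ≤ A.comap (MulAut.conj (ψ h)).toMonoidHom := (closure_le _).2 (by
      rintro _ ⟨k, rfl⟩
      exact Subgroup.subset_closure ⟨h * k, by simp [mul_assoc]⟩)
    simpa [MulAut.conj_apply] using this ha
  set K := A.comap ψ with hK
  haveI : K.Normal := ⟨fun k hk h => by
    rw [mem_comap, map_mul, map_mul, map_inv]; exact hAinv h _ hk⟩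
  obtain ⟨T3⟩ := (inferInstance : Nonempty (Sylow 3 K))
  set T3g := (T3 : Subgroup K).map K.subtype with hT3g
  have hT3p : IsPGroup 3 T3g := T3.isPGroup'.map _
  have hxA : ψ q ∈ A := Subgroup.subset_closure ⟨1, by simp⟩
  have hxT : ψ q ∈ T3g.map ψ := by
    have h1 : ((T3g.map ψ).relIndex A) ∣ (T3 : Subgroup K).index := by
      have h2 : K.map ψ = A := by
        refine map_comap_eq_self ((closure_le _).2 ?_)
        rintro _ ⟨h, rfl⟩
        exact ⟨h * q * h⁻¹, by simp⟩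
      have h3 := Core.relIndex_map_dvd_of_normal ψ (map_subtype_le (T3 : Subgroup K))
      rw [h2] at h3
      refine h3.trans (dvd_of_eq ?_)
      rw [relIndex, subgroupOf, comap_map_eq_self_of_injective K.subtype_injective]
    have h4 : A ≤ T3g.map ψ := by
      rw [← relIndex_eq_one, Nat.eq_one_iff_not_exists_prime_dvd]
      intro t ht htd
      have hAp : IsPGroup 3 A := fun a => ⟨1, Subtype.ext (by simpa using hA3 a a.2)⟩
      obtain ⟨k, hk⟩ := IsPGroup.iff_card.1 hAp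
      have : t = 3 := (Nat.prime_dvd_prime_iff_eq ht Nat.prime_three).1
        (ht.dvd_of_dvd_pow (hk ▸ htd.trans (relIndex_dvd_card _ _)))
      subst this
      exact T3.not_dvd_index (htd.trans h1)
    exact h4 hxA
  have hsup : normalizer (T3g : Set H) ⊔ K = ⊤ := Sylow.normalizer_sup_eq_top T3
  obtain ⟨k, hk, n, hn, hnk⟩ := Coprime.exists_mul_of_mem_sup (N := K) (A := normalizer (T3g : Set H))
    (le_top.trans (Subgroup.normalizer_eq_top K).ge)
    (show e ∈ K ⊔ normalizer (T3g : Set H) by rw [sup_comm, hsup]; exact Subgroup.mem_top _)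
  obtain ⟨m, i, hm, hmi⟩ := exists_pow_part (p := p) n
  have hconj : ∀ j : ℕ, ∀ t ∈ A, (ψ n) ^ j * t * ((ψ n) ^ j)⁻¹ = (ψ e) ^ j * t * ((ψ e) ^ j)⁻¹ := by
    intro j
    induction j with
    | zero => simp
    | succ j ih =>
      intro t ht
      have hee : ψ e = ψ k * ψ n := by rw [← map_mul, hnk]
      have h1 : ψ e * t * (ψ e)⁻¹ = ψ n * t * (ψ n)⁻¹ := by
        rw [hee]
        calc ψ k * ψ n * t * (ψ k * ψ n)⁻¹ = ψ k * (ψ n * t * (ψ n)⁻¹) * (ψ k)⁻¹ := by group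
          _ = (ψ n * t * (ψ n)⁻¹) * ψ k * (ψ k)⁻¹ := by rw [hAcomm _ hk _ (hAinv n t ht)]
          _ = ψ n * t * (ψ n)⁻¹ := by group
      calc (ψ n) ^ (j + 1) * t * ((ψ n) ^ (j + 1))⁻¹
          = (ψ n) ^ j * (ψ n * t * (ψ n)⁻¹) * ((ψ n) ^ j)⁻¹ := by rw [pow_succ]; group
        _ = (ψ e) ^ j * (ψ n * t * (ψ n)⁻¹) * ((ψ e) ^ j)⁻¹ := ih _ (hAinv n t ht)
        _ = (ψ e) ^ j * (ψ e * t * (ψ e)⁻¹) * ((ψ e) ^ j)⁻¹ := by rw [h1]
        _ = (ψ e) ^ (j + 1) * t * ((ψ e) ^ (j + 1))⁻¹ := by rw [pow_succ]; group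
  obtain ⟨t, ht, htx⟩ := hxT
  have h1 := centralizes_of_pPower hp hp5 hT3p (hrk T3g hT3p) (pow_mem hn m) hmi t ht
  have h2 := congrArg ψ h1
  rw [map_mul, map_mul, map_inv, map_pow, htx, hconj m (ψ q) hxA] at h2
  have hep : (ψ e) ^ p = 1 := by rw [← map_pow, he, map_one]
  rw [pow_eq_pow_mod m hep, hm, pow_one] at h2
  exact mul_inv_eq_iff_eq_mul.1 h2

theorem main [Group.IsSolvable S] (he : ∀ v : M, v ^ 2 = 1) {p : ℕ} (hp : p.Prime) (hp2 : p ≠ 2)
    {E : Subgroup S} (hE : IsElementaryAbelian p E) (hE3 : Nat.card E = p ^ 3) {q : S}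
    (hq : IsPGroup 3 (zpowers q)) (hq1 : (MulAut.conjNormal q : MulAut M) ^ 3 = 1)
    (hcard : Nat.card (supp (MulAut.conjNormal q : MulAut M)) = 4) :
    Goal (supp (MulAut.conjNormal q : MulAut M)) := by
  haveI := Fact.mk hp
  haveI : Fact (Nat.Prime 3) := ⟨Nat.prime_three⟩
  set φ : S →* MulAut M := MulAut.conjNormal with hφ
  set x := φ q with hx
  obtain ⟨T, hT⟩ := hq.exists_le_sylow
  by_cases h3 : PRankLE 3 2 (T : Subgroup S)
  swap
  · exact goal_of_sylow he blocky_three (by norm_num) T h3 (hT (mem_zpowers q)) hq1 hcard le_rfl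
  have hrk : ∀ R : Subgroup S, IsPGroup 3 R → PRankLE 3 2 R := by
    intro R hR
    obtain ⟨g, hg⟩ := PLocal.exists_conj_le_sylow hR T
    exact Components.pRankLE_of_injective
      (f := (Subgroup.inclusion hg).comp ((MulAut.conj g).subgroupMap R).toMonoidHom)
      ((Subgroup.inclusion_injective hg).comp ((MulAut.conj g).subgroupMap R).injective) h3
  have hrank : ∀ {r : ℕ} [Fact r.Prime] (F : Subgroup S), IsElementaryAbelian r F → Nat.card F = r ^ 3 →
      ∀ T : Sylow r S, ¬ PRankLE r 2 (T : Subgroup S) := by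
    intro r _ F hF hFc T' hle
    obtain ⟨g, hg⟩ := PLocal.exists_conj_le_sylow (PLocal.isPGroup_of_EA hF) T'
    have hF' := PLocal.isEA_comap (PLocal.isEA_map hF (MulAut.conj g).toMonoidHom) _
      (T' : Subgroup S).subtype_injective
    have := hle _ hF'.1 hF'.2
    change Nat.card ↥((F.map (MulAut.conj g).toMonoidHom).subgroupOf (T' : Subgroup S)) ≤ r ^ 2 at this
    rw [Nat.card_congr (subgroupOfEquivOfLe hg).toEquiv, card_map_of_injective (f := (MulAut.conj g).toMonoidHom) (MulAut.conj g).injective,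
      hFc] at this
    exact absurd this (not_le.2 (Nat.pow_lt_pow_right (Fact.out : r.Prime).one_lt (by norm_num)))
  have hp5 : 5 ≤ p := by
    have hp3 : p ≠ 3 := by rintro rfl; exact hrank E hE hE3 T h3
    have := hp.two_le
    by_contra h
    interval_cases p
    · exact hp2 rfl
    · exact hp3 rfl
    · norm_num at hp
  -- a Hall subgroup for `{3, p}` containing `q` and a conjugate of `E`
  obtain ⟨H, hH, hqH⟩ := Core.exists_isPiHall_ge_of_isSolvable (π := ({3, p} : Set ℕ))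
    (K := zpowers q) (fun t ht htd => by
      obtain ⟨k, hk⟩ := IsPGroup.iff_card.1 hq
      rw [hk] at htd
      exact Or.inl ((Nat.prime_dvd_prime_iff_eq ht Nat.prime_three).1 (ht.dvd_of_dvd_pow htd)))
  have hHπ : ∀ t : ℕ, t.Prime → t ∣ Nat.card H → t = 3 ∨ t = p := fun t ht htd => (Core.isPiHall_iff.1 hH).1 t ht htd
  have hHp : ¬ p ∣ H.index := fun hd => (Core.isPiHall_iff.1 hH).2 p hp hd (Or.inr rfl)
  obtain ⟨P, hPH⟩ := SingularGraph.exists_sylow_le (p := p) hHp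
  obtain ⟨g, hg⟩ := PLocal.exists_conj_le_sylow (PLocal.isPGroup_of_EA hE) P
  set E' := E.map (MulAut.conj g).toMonoidHom with hE'
  have hE'ea : IsElementaryAbelian p E' := PLocal.isEA_map hE _
  have hE'c : Nat.card E' = p ^ 3 := by
    rw [hE', card_map_of_injective (f := (MulAut.conj g).toMonoidHom) (MulAut.conj g).injective, hE3]
  have hE'H : E' ≤ H := hg.trans hPH
  have hqH' : q ∈ H := hqH (mem_zpowers q)
  set ψ : H →* MulAut M := φ.comp H.subtype with hψ
  by_cases hall : ∀ h : H, Commute x (ψ h * x * (ψ h)⁻¹)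
  swap
  · push Not at hall
    obtain ⟨h, hh⟩ := hall
    set y := ψ h * x * (ψ h)⁻¹ with hy
    have hyc : Nat.card (supp y) = 4 := by rw [hy, supp_conj, card_map_of_injective (f := (ψ h).toMonoidHom) (ψ h).injective, hcard]
    have hy1 : y ^ 3 = 1 := by rw [hy, conj_pow, hq1, mul_one, mul_inv_cancel]
    have hLH : closure ({x, y} : Set (MulAut M)) ≤ ψ.range := (closure_le _).2 (Set.insert_subset_iff.2
      ⟨⟨⟨q, hqH'⟩, rfl⟩, Set.singleton_subset_iff.2 ⟨h * ⟨q, hqH'⟩ * h⁻¹, by simp [hy, hψ, hx]⟩⟩)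
    have hLd : Nat.card (closure ({x, y} : Set (MulAut M))) ∣ Nat.card H :=
      (card_dvd_of_le hLH).trans (card_range_dvd ψ)
    have hodd : Odd (Nat.card (closure ({x, y} : Set (MulAut M)))) := by
      refine Odd.of_dvd_nat (Nat.not_even_iff_odd.1 fun h2 => ?_) hLd
      rcases hHπ 2 Nat.prime_two (even_iff_two_dvd.1 h2) with e | e <;> omega
    obtain ⟨z, hz7, hzc, hsub, hzL⟩ := exists_seven he hp5 hq1 hy1 hcard hyc hodd
      (fun t ht htd => hHπ t ht (htd.trans hLd)) hh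
    haveI : Fact (Nat.Prime 7) := ⟨by norm_num⟩
    have hp7 : p = 7 := by
      have hz1 : z ≠ 1 := by
        rintro rfl
        have : supp (1 : MulAut M) = ⊥ := by
          rw [eq_bot_iff_forall]; rintro _ ⟨v, rfl⟩; simp [dlt_apply]
        rw [this, Subgroup.card_bot] at hzc
        omega
      have h7 : 7 ∣ Nat.card (closure ({x, y} : Set (MulAut M))) := by
        rw [← orderOf_eq_prime hz7 hz1, ← Nat.card_zpowers]
        exact card_dvd_of_le (zpowers_le.2 hzL)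
      rcases hHπ 7 (by norm_num) (h7.trans hLd) with e | e <;> omega
    obtain ⟨s, hs⟩ := hLH hzL
    obtain ⟨m, i, hm, hmi⟩ := exists_pow_part (p := 7) (s : S)
    have hsz : φ ((s : S) ^ m) = z := by
      rw [map_pow, show φ (s : S) = z from hs, pow_eq_pow_mod m hz7, hm, pow_one]
    have hsp : IsPGroup 7 (zpowers ((s : S) ^ m)) := by
      obtain ⟨j, -, hj⟩ := (Nat.dvd_prime_pow Fact.out).1 (orderOf_dvd_of_pow_eq_one hmi)
      exact IsPGroup.of_card (n := j) (by rw [Nat.card_zpowers, hj])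
    obtain ⟨T7, hT7⟩ := hsp.exists_le_sylow
    subst hp7
    have hz8 : Nat.card (supp (φ ((s : S) ^ m))) = 2 ^ 3 := by rw [hsz, hzc]; rfl
    exact goal_of_sylow he blocky_seven (by norm_num) T7 (hrank E hE hE3 T7) (hT7 (mem_zpowers _))
      (by rw [← hφ, hsz]; exact hz7) hz8 (by rw [← hφ, hsz]; exact hsub)
  -- all conjugates of `x` under `H` commute
  have hcomm : ∀ e ∈ E', Commute (φ e) x := fun e he' =>
    commute_of_all_commute hp hp5 ψ (fun R hR => by
        refine Components.pRankLE_of_injective (f := (H.subtype.subgroupMap R)) ?_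
          (hrk (R.map H.subtype) (hR.map _))
        exact fun a b h => Subtype.ext (Subtype.ext (congrArg (fun w : R.map H.subtype => (w : S)) h)))
      (q := ⟨q, hqH'⟩) hq1 hall ⟨e, hE'H he'⟩ (Subtype.ext (hE'ea.2 e he'))
  refine goal_of_ker hp2 hE'ea hE'c ⟨E', le_rfl, ?_, fun f hf w hw => ?_⟩
  · rw [hE'c]; exact Nat.pow_le_pow_right hp.pos (by norm_num)
  · have hinv : ∀ g ∈ E'.map φ, ∀ u ∈ supp x, g u ∈ supp x := by
      rintro _ ⟨e, he', rfl⟩ u hu
      exact commute_apply_mem (hcomm e he').symm hu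
    have h1 : restrictHom (supp x) (E'.map φ) hinv ⟨φ f, mem_map_of_mem φ hf⟩ = 1 := by
      refine eq_one_of_small_aut Nat.prime_two hp hp2 (k := 2) (by rw [hcard]; rfl) (not_dvd_prod_two hp hp5) (i := 1) ?_
      rw [pow_one, ← map_pow]
      refine (congrArg _ (Subtype.ext ?_)).trans (map_one _)
      show φ f ^ p = 1
      rw [← map_pow, hE'ea.2 f hf, map_one]
    exact restrictHom_eq_one.1 h1 w hw

theorem map_supp_eq_commutator {q : S} {Q : Subgroup S} (hQ : zpowers q = Q) :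
    (supp (MulAut.conjNormal q : MulAut M)).map M.subtype = ⁅Q, M⁆ := by
  have key : ∀ (s : S) (m : M), ((dlt (MulAut.conjNormal s : MulAut M) m : M) : S) = ⁅s, (m : S)⁆ := fun s m => by
    rw [dlt_apply, div_eq_mul_inv, coe_mul, MulAut.conjNormal_apply, coe_inv, commutatorElement_def]
  refine le_antisymm ?_ (commutator_le.2 fun g hg m hm => ?_)
  · rintro _ ⟨_, ⟨v, rfl⟩, rfl⟩
    rw [coe_subtype, key]
    exact commutator_mem_commutator (hQ ▸ mem_zpowers q) v.2
  · rw [← hQ] at hg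
    obtain ⟨k, rfl⟩ := hg
    refine ⟨dlt ((MulAut.conjNormal q : MulAut M) ^ k) ⟨m, hm⟩, ?_, ?_⟩
    · exact zpow_mem (self_mem_shiftGroup (U := supp (MulAut.conjNormal q : MulAut M)) _ le_rfl) k _
    · rw [← map_zpow]; exact key _ _

theorem final [Group.IsSolvable S] {p : ℕ} (he : ∀ v : M, v ^ 2 = 1) (hp : p.Prime) (hp2 : p ≠ 2)
    {E : Subgroup S} (hE : IsElementaryAbelian p E) (hE3 : Nat.card E = p ^ 3) {Q : Subgroup S}
    (hQc : IsCyclic Q) (hQ3 : IsPGroup 3 Q) (hQ1 : ∀ x ∈ Q, x ^ 3 ∈ centralizer (M : Set S))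
    (hQM : Nat.card ↥⁅Q, M⁆ = 4) :
    ∃ (r : ℕ) (F : Subgroup S), r.Prime ∧ r ≠ 2 ∧ IsElementaryAbelian r F ∧ Nat.card F = r ^ 3 ∧
      ¬ IsCyclic ↥(F ⊓ centralizer ((⁅Q, M⁆ : Subgroup S) : Set S)) := by
  obtain ⟨q, hq⟩ := Subgroup.isCyclic_iff_exists_zpowers_eq_top Q |>.1 hQc
  have hW := map_supp_eq_commutator (M := M) hq
  have hq1 : (MulAut.conjNormal q : MulAut M) ^ 3 = 1 := by
    rw [← map_pow]
    refine MulEquiv.ext fun v => Subtype.ext ?_
    rw [MulAut.conjNormal_apply, MulAut.one_apply,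
      ← mem_centralizer_iff.1 (hQ1 q (hq ▸ mem_zpowers q)) v v.2, mul_inv_cancel_right]
  have hcard : Nat.card (supp (MulAut.conjNormal q : MulAut M)) = 4 := by
    rw [← hQM, ← hW, card_map_of_injective M.subtype_injective]
  have h := main he hp hp2 hE hE3 (hq.symm ▸ hQ3) hq1 hcard
  rw [← hW]; exact h

end Cfsg.Agent.FGS4.SmallSupport
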