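import Cfsg.Agent.FGS4.SmallSupport.Basic
import Mathlib.GroupTheory.Sylow
import Mathlib.GroupTheory.SpecificGroups.Cyclic

/-! # Two non-commuting elements of order three with supports of order four -/

set_option linter.style.haveILetI false

namespace Cfsg.Agent.FGS4.SmallSupport

open Subgroup

theorem dvd_prod_of_odd {X : Type*} [Group X] [Finite X] {k n : ℕ} (hX : Nat.card X ∣ 2 ^ k) (hn : Odd n)
    (h : n ∣ Nat.card (MulAut X)) : ∃ j ≤ k, n ∣ ∏ i ∈ Finset.range j, (2 ^ j - 2 ^ i) := by
  obtain ⟨m, hmk, hm⟩ := (Nat.dvd_prime_pow Nat.prime_two).1 hX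
  have hp : IsPGroup 2 X := IsPGroup.of_card hm
  obtain ⟨j, hj⟩ := hp.index (frattini X)
  have hjm : j ≤ m := (Nat.pow_dvd_pow_iff_le_right one_lt_two).1 (hm ▸ hj ▸ index_dvd_card _)
  obtain ⟨i, hi⟩ := IsPGroup.iff_card.1 (hp.to_subgroup (frattini X))
  have h1 := h.trans (FGS3.card_mulAut_dvd hp hj)
  rw [hi, ← pow_mul] at h1
  exact ⟨j, hjm.trans hmk, Nat.Coprime.dvd_of_dvd_mul_left ((Nat.coprime_two_right.2 hn).pow_right _) h1⟩

theorem mem_of_normal_sylow {L : Type*} [Group L] [Finite L] {r : ℕ} [hr : Fact r.Prime] (T : Sylow r L)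
    (hT : (T : Subgroup L).Normal) {g : L} (hg : g ^ r = 1) : g ∈ (T : Subgroup L) := by
  have hp : IsPGroup r (zpowers g) := by
    obtain ⟨k, -, hk⟩ := (Nat.dvd_prime_pow hr.out).1 (orderOf_dvd_of_pow_eq_one (n := r ^ 1) (x := g) (by rwa [pow_one]))
    exact IsPGroup.of_card (n := k) (by rw [Nat.card_zpowers, hk])
  obtain ⟨T', hT'⟩ := hp.exists_le_sylow
  obtain ⟨a, ha⟩ := MulAction.exists_smul_eq L T T'
  rw [Sylow.smul_eq_iff_mem_normalizer.2 ((normalizer_eq_top_iff.2 hT).ge (Subgroup.mem_top a))] at ha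
  exact ha ▸ hT' (mem_zpowers g)

theorem exists_seven {V : Type*} [CommGroup V] [Finite V] (he : ∀ v : V, v ^ 2 = 1) {p : ℕ}
    [hp : Fact p.Prime] (hp5 : 5 ≤ p) {x y : MulAut V} (hx : x ^ 3 = 1) (hy : y ^ 3 = 1)
    (hcx : Nat.card (supp x) = 4) (hcy : Nat.card (supp y) = 4)
    (hodd : Odd (Nat.card (closure ({x, y} : Set (MulAut V)))))
    (hπ : ∀ t : ℕ, t.Prime → t ∣ Nat.card (closure ({x, y} : Set (MulAut V))) → t = 3 ∨ t = p)
    (hne : ¬ Commute x y) : ∃ z : MulAut V, z ^ 7 = 1 ∧ Nat.card (supp z) = 8 ∧ supp x ≤ supp z ∧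
      z ∈ closure ({x, y} : Set (MulAut V)) := by
  set L := closure ({x, y} : Set (MulAut V)) with hL
  set U := supp x ⊔ supp y with hU
  have hxL : x ∈ L := Subgroup.subset_closure (Set.mem_insert _ _)
  have hyL : y ∈ L := Subgroup.subset_closure (Set.mem_insert_of_mem _ rfl)
  have hLs : L ≤ shiftGroup U := (closure_le _).2 (Set.insert_subset_iff.2
    ⟨self_mem_shiftGroup x le_sup_left, Set.singleton_subset_iff.2 (self_mem_shiftGroup y le_sup_right)⟩)
  have hinj := injective_restrictHom he hLs hodd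
  have hUd : Nat.card U ∣ 2 ^ 4 := card_sup_supp_dvd x y (d := 2) hcx hcy
  obtain ⟨j, hj4, hjd⟩ := dvd_prod_of_odd hUd hodd (Subgroup.card_dvd_of_injective _ hinj)
  have h315 : Nat.card L ∣ 315 := by
    have h1 : ∀ j ≤ 4, (∏ i ∈ Finset.range j, (2 ^ j - 2 ^ i)) ∣ 2 ^ 6 * 315 := by decide
    exact ((Nat.coprime_two_right.2 hodd).pow_right 6).dvd_of_dvd_mul_left (hjd.trans (h1 j hj4))
  haveI : Fact (Nat.Prime 3) := ⟨Nat.prime_three⟩
  have hblock : ∀ T : Subgroup (MulAut V), IsPGroup 3 T → x ∈ T → y ∈ T → False := fun T hT h1 h2 =>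
    hne (blocks he blocky_three hT h1 h2 hx hcx hcy).1
  have hpd : p ∣ Nat.card L := by
    by_contra hnd
    have hpi : IsPGroup 3 L := by
      refine IsPGroup.iff_card.2 ⟨_, Nat.eq_prime_pow_of_unique_prime_dvd Nat.card_pos.ne' fun {t} ht htd => ?_⟩
      exact (hπ t ht htd).resolve_right fun e => hnd (e ▸ htd)
    exact hblock L hpi hxL hyL
  have hp315 : p ∣ 315 := hpd.trans h315
  have hp57 : p = 5 ∨ p = 7 := by
    have h1 : p ∣ 9 * (5 * 7) := hp315
    rcases hp.out.dvd_mul.1 h1 with h | h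
    · have := (Nat.prime_dvd_prime_iff_eq hp.out Nat.prime_three).1 (hp.out.dvd_of_dvd_pow (n := 2) h)
      omega
    · rcases hp.out.dvd_mul.1 h with h | h
      · exact Or.inl ((Nat.prime_dvd_prime_iff_eq hp.out (by norm_num)).1 h)
      · exact Or.inr ((Nat.prime_dvd_prime_iff_eq hp.out (by norm_num)).1 h)
  have h9p : Nat.card L ∣ 9 * p := by
    have h1 : ∀ t : ℕ, t.Prime → t ∣ Nat.card L → t = 3 ∨ t = p := hπ
    rcases hp57 with rfl | rfl
    · refine Nat.Coprime.dvd_of_dvd_mul_left (k := Nat.card L) (m := 7) ?_ (by simpa using h315)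
      exact ((by norm_num : Nat.Prime 7).coprime_iff_not_dvd.2 fun h =>
        by rcases h1 7 (by norm_num) h with e | e <;> omega).symm
    · refine Nat.Coprime.dvd_of_dvd_mul_left (k := Nat.card L) (m := 5) ?_ (by simpa using h315)
      exact ((by norm_num : Nat.Prime 5).coprime_iff_not_dvd.2 fun h =>
        by rcases h1 5 (by norm_num) h with e | e <;> omega).symm
  obtain ⟨P⟩ := (inferInstance : Nonempty (Sylow p L))
  have hPc : Nat.card (P : Subgroup L) = p := by
    rw [P.card_eq_multiplicity]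
    have h1 : 1 ≤ (Nat.card L).factorization p := (hp.out.dvd_iff_one_le_factorization Nat.card_pos.ne').1 hpd
    have h2 : (Nat.card L).factorization p ≤ 1 := by
      refine le_trans ((Nat.factorization_le_iff_dvd Nat.card_pos.ne' (by positivity)).2 h9p p) ?_
      rw [Nat.factorization_mul (by norm_num) hp.out.ne_zero, Finsupp.add_apply, hp.out.factorization_self,
        Nat.factorization_eq_zero_of_not_dvd fun h => by
          have := (Nat.prime_dvd_prime_iff_eq hp.out Nat.prime_three).1 (hp.out.dvd_of_dvd_pow (n := 2) h)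
          omega]
    rw [le_antisymm h2 h1, pow_one]
  have hPn : (P : Subgroup L).Normal := by
    rw [← normalizer_eq_top_iff, ← index_eq_one]
    have h1 := card_sylow_modEq_one p L
    rw [Sylow.card_eq_index_normalizer P] at h1
    have h2 : (normalizer ((P : Subgroup L) : Set L)).index ∣ 9 := by
      have h3 : (P : Subgroup L).index ∣ 9 := by
        have := h9p
        rw [← (P : Subgroup L).card_mul_index, hPc, mul_comm 9 p] at this
        exact Nat.dvd_of_mul_dvd_mul_left hp.out.pos this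
      exact (index_dvd_of_le le_normalizer).trans h3
    have h4 := Nat.le_of_dvd (by norm_num) h2
    unfold Nat.ModEq at h1
    rcases hp57 with rfl | rfl <;> interval_cases (normalizer ((P : Subgroup L) : Set L)).index <;> omega
  haveI := hPn
  obtain ⟨z, hz⟩ : ∃ z : L, z ∈ (P : Subgroup L) ∧ z ≠ 1 := by
    haveI : Nontrivial (P : Subgroup L) := Finite.one_lt_card_iff_nontrivial.1 (by rw [hPc]; exact hp.out.one_lt)
    obtain ⟨z, hz⟩ := exists_ne (1 : (P : Subgroup L))
    exact ⟨z, z.2, fun h => hz (Subtype.ext h)⟩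
  rcases hp57 with rfl | rfl
  · -- the Sylow 5-subgroup is central
    exfalso
    haveI : IsCyclic (P : Subgroup L) := isCyclic_of_prime_card hPc
    have haut : Nat.card (MulAut (P : Subgroup L)) = 4 := by
      rw [IsCyclic.card_mulAut, hPc]; rfl
    have hcen : ∀ g : L, MulAut.conjNormal (H := (P : Subgroup L)) g = 1 := by
      intro g
      refine orderOf_eq_one_iff.1 (Nat.eq_one_of_dvd_coprimes (a := Nat.card L) (b := 4) ?_
        ((orderOf_map_dvd _ g).trans (_root_.orderOf_dvd_natCard g)) (haut ▸ _root_.orderOf_dvd_natCard _))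
      exact Nat.Coprime.pow_right 2 (Nat.coprime_two_right.2 hodd)
    obtain ⟨T⟩ := (inferInstance : Nonempty (Sylow 3 L))
    have hTn : (T : Subgroup L).Normal := by
      rw [← normalizer_eq_top_iff, ← index_eq_one, Nat.eq_one_iff_not_exists_prime_dvd]
      intro t ht htd
      rcases hπ t ht (htd.trans (index_dvd_card _)) with rfl | rfl
      · exact T.not_dvd_index (htd.trans (index_dvd_of_le le_normalizer))
      · refine P.not_dvd_index (htd.trans (index_dvd_of_le fun g hg => mem_normalizer_fintype fun w hw => ?_))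
        have h := congrArg Subtype.val (DFunLike.congr_fun (hcen w) ⟨g, hg⟩)
        rw [MulAut.conjNormal_apply] at h
        have h' : w * g * w⁻¹ = g := h
        rw [show g * w * g⁻¹ = w by rw [mul_inv_eq_iff_eq_mul.1 h' |>.symm, mul_inv_cancel_right]]
        exact hw
    exact hblock ((T : Subgroup L).map L.subtype) (T.isPGroup'.map _)
      ⟨⟨x, hxL⟩, mem_of_normal_sylow T hTn (Subtype.ext hx), rfl⟩
      ⟨⟨y, hyL⟩, mem_of_normal_sylow T hTn (Subtype.ext hy), rfl⟩
  · have hz7 : z ^ 7 = 1 := by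
      have := pow_card_eq_one' (x := (⟨z, hz.1⟩ : (P : Subgroup L)))
      rw [hPc] at this
      exact congrArg Subtype.val this
    have hzV : (z : MulAut V) ^ 7 = 1 := congrArg Subtype.val hz7
    haveI : Fact (Nat.Prime 7) := ⟨by norm_num⟩
    have hXU : supp (z : MulAut V) ≤ U := by rintro _ ⟨v, rfl⟩; exact hLs z.2 v
    obtain ⟨i, hi⟩ := card_eq_two_pow he (supp (z : MulAut V))
    have h1 := dvd_card_sub_one he (r := 7) (by norm_num) hzV le_rfl
      (fun w hw => commute_apply_mem (Commute.refl _) hw)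
    have hi4 : i ≤ 4 := (Nat.pow_dvd_pow_iff_le_right one_lt_two).1
      (hi ▸ (card_dvd_of_le hXU).trans hUd)
    rw [hi] at h1
    have hi0 : i ≠ 0 := by
      rintro rfl
      refine hz.2 (Subtype.ext (MulEquiv.ext fun v => ?_))
      have h2 := dlt_mem (z : MulAut V) v
      rw [eq_bot_of_card_eq (supp (z : MulAut V)) (by rw [hi, pow_zero]), mem_bot] at h2
      rw [apply_eq, h2, mul_one]; rfl
    have hi3 : i = 3 := by interval_cases i <;> omega
    subst hi3
    refine ⟨z, hzV, hi, ?_, z.2⟩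
    -- `x` preserves the support of `z`
    set X := supp (z : MulAut V) with hX
    have hxX : ∀ w ∈ X, x w ∈ X := by
      intro w hw
      have h2 : (⟨x, hxL⟩ : L) * z * (⟨x, hxL⟩ : L)⁻¹ ∈ zpowers z := by
        have h3 : zpowers z = (P : Subgroup L) := by
          refine Subgroup.eq_of_le_of_card_ge (zpowers_le.2 hz.1) ?_
          rw [Nat.card_zpowers, orderOf_eq_prime hz7 hz.2, hPc]
        rw [h3]; exact hPn.conj_mem z hz.1 _
      obtain ⟨k, hk⟩ := h2
      have h3 : supp (x * (z : MulAut V) * x⁻¹) ≤ X := by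
        rintro _ ⟨v, rfl⟩
        have h4 : ((z : MulAut V) ^ k : MulAut V) = x * (z : MulAut V) * x⁻¹ := by
          have := congrArg Subtype.val hk
          push_cast at this
          exact this
        exact h4 ▸ zpow_mem (self_mem_shiftGroup (U := X) _ le_rfl) k v
      exact h3 (supp_conj x z ▸ mem_map_of_mem _ hw)
    have hU16 : Nat.card U ≤ 16 := Nat.le_of_dvd (by norm_num) hUd
    have hdU : ∀ u ∈ U, dlt x u ∈ X := by
      intro u hu
      by_cases hu' : u ∈ X
      · exact div_mem (hxX u hu') hu'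
      have h2 : (X.subgroupOf U).index = 2 := by
        have h3 := (X.subgroupOf U).card_mul_index
        rw [Nat.card_congr (subgroupOfEquivOfLe hXU).toEquiv, hi] at h3
        have h4 : (X.subgroupOf U).index ≤ 2 := by omega
        have h5 : (X.subgroupOf U).index ≠ 1 := fun e => hu' (subgroupOf_eq_top.1 (index_eq_one.1 e) hu)
        have h6 : (X.subgroupOf U).index ≠ 0 := index_ne_zero_of_finite
        omega
      have hxu : x u ∈ U := mem_of_mem_shiftGroup (hLs hxL) hu
      have h3 : (⟨x u, hxu⟩ : U) ∉ X.subgroupOf U := by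
        intro h4
        have h5 := map_eq_of_forall_mem hxX
        obtain ⟨w, hw, hwu⟩ : x u ∈ X.map x.toMonoidHom := h5.symm ▸ h4
        exact hu' (x.injective hwu ▸ hw)
      have h4 := (mul_mem_iff_of_index_two h2 (a := (⟨x u, hxu⟩ : U)) (b := (⟨u, hu⟩ : U)⁻¹)).2
        (iff_of_false h3 fun h => hu' (inv_mem_iff.1 h))
      rw [dlt_apply, div_eq_mul_inv]
      exact h4
    intro u hu
    have hinj' : Function.Injective ((dlt x).domRestrict (supp x)) := by
      rw [injective_iff_map_eq_one]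
      intro w hw
      have h2 : x w = w := by rw [apply_eq, show dlt x w = 1 from hw, mul_one]
      exact Subtype.ext (eq_one_of_fixed he (by decide : Odd 3) hx w.2 h2)
    have hle : (supp x).map (dlt x) ≤ supp x := by rintro _ ⟨w, -, rfl⟩; exact dlt_mem x w
    have heq : (supp x).map (dlt x) = supp x := by
      refine Subgroup.eq_of_le_of_card_ge hle ?_
      rw [← MonoidHom.domRestrict_range, Nat.card_congr (MonoidHom.ofInjective hinj').toEquiv]
    obtain ⟨w, hw, rfl⟩ : u ∈ (supp x).map (dlt x) := heq.symm ▸ hu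
    exact hdU w ((le_sup_left : supp x ≤ U) hw)

end Cfsg.Agent.FGS4.SmallSupport
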